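import Cfsg.Agent.SP.Basic
import Cfsg.Prelude.Def_KGroupFacts

/-! # S5755, positive rows: general criteria (helper26) -/

set_option autoImplicit false

namespace Cfsg.Agent.SP.PosB

open Cfsg.Agent.SP

variable {T : Type*} [Group T]

theorem inner_of_out_one (h : Nat.card (Cfsg.Out T) = 1) (τ : MulAut T) : ∃ t : T, τ = MulAut.conj t := by
  have h1 : (MulAut.conj : T →* MulAut T).range.index = 1 := h
  rw [Subgroup.index_eq_one] at h1
  have h2 : τ ∈ (MulAut.conj : T →* MulAut T).range := by rw [h1]; exact Subgroup.mem_top _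
  obtain ⟨t, ht⟩ := h2
  exact ⟨t, ht.symm⟩

theorem pairAut_of_out_one (h : Nat.card (Cfsg.Out T) = 1) (hp : Pair T) : PairAut T :=
  hp.pairAut (inner_of_out_one h)

theorem aut_cases (h : Nat.card (Cfsg.Out T) = 2) {ρ : MulAut T} (hρ : ∀ g : T, ρ ≠ MulAut.conj g)
    (τ : MulAut T) : (∃ t : T, τ = MulAut.conj t) ∨ ∃ t : T, τ = MulAut.conj t * ρ := by
  have h1 : (MulAut.conj : T →* MulAut T).range.index = 2 := h
  by_cases hτ : τ ∈ (MulAut.conj : T →* MulAut T).range
  · obtain ⟨t, ht⟩ := hτ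
    exact Or.inl ⟨t, ht.symm⟩
  · have hρ' : ρ⁻¹ ∉ (MulAut.conj : T →* MulAut T).range := by
      intro hm
      obtain ⟨t, ht⟩ := (Subgroup.inv_mem_iff _).1 hm
      exact hρ t ht.symm
    have h2 : τ * ρ⁻¹ ∈ (MulAut.conj : T →* MulAut T).range := by
      rw [Subgroup.mul_mem_iff_of_index_two h1]
      exact ⟨fun h => absurd h hτ, fun h => absurd h hρ'⟩
    obtain ⟨t, ht⟩ := h2
    exact Or.inr ⟨t, by rw [ht]; group⟩

/-- `Out T` of order two, generated by `ρ`, and `ρ(A)` conjugate to `A`. -/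
theorem IsPair.isPairAut_of_out_two {A B : Subgroup T} (hp : IsPair A B) (h : Nat.card (Cfsg.Out T) = 2)
    {ρ : MulAut T} (hρ : ∀ g : T, ρ ≠ MulAut.conj g) {s : T}
    (hs : A.map ρ.toMonoidHom = A.map (MulAut.conj s).toMonoidHom) : IsPairAut A B := by
  refine hp.isPairAut fun τ => ?_
  rcases aut_cases h hρ τ with ⟨t, rfl⟩ | ⟨t, rfl⟩
  · exact ⟨t, rfl⟩
  · refine ⟨t * s, ?_⟩
    have e1 : (MulAut.conj t * ρ : MulAut T).toMonoidHom =
        (MulAut.conj t : MulAut T).toMonoidHom.comp ρ.toMonoidHom := rfl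
    have e2 : (MulAut.conj (t * s) : MulAut T).toMonoidHom =
        (MulAut.conj t : MulAut T).toMonoidHom.comp (MulAut.conj s : MulAut T).toMonoidHom := by
      rw [map_mul]; rfl
    rw [e1, e2, ← Subgroup.map_map, ← Subgroup.map_map, hs]

/-- a finite subgroup mapped into a conjugate is mapped onto it -/
theorem map_eq_of_le {A : Subgroup T} [Finite A] (ρ : MulAut T) (s : T)
    (h : ∀ a ∈ A, s⁻¹ * ρ a * s ∈ A) :
    A.map ρ.toMonoidHom = A.map (MulAut.conj s).toMonoidHom := by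
  have hle : A.map ρ.toMonoidHom ≤ A.map (MulAut.conj s).toMonoidHom := by
    rintro _ ⟨a, ha, rfl⟩
    exact mem_map_conj.2 (h a ha)
  have hc1 : Nat.card (A.map ρ.toMonoidHom) = Nat.card A := Subgroup.card_map_of_injective ρ.injective
  have hc2 : Nat.card (A.map (MulAut.conj s).toMonoidHom) = Nat.card A :=
    Subgroup.card_map_of_injective (MulAut.conj s).injective
  have hf : Finite (A.map (MulAut.conj s).toMonoidHom) :=
    Finite.of_equiv _ (A.equivMapOfInjective _ (MulAut.conj s).injective).toEquiv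
  exact Subgroup.eq_of_le_of_card_ge hle (by rw [hc1, hc2])

/-- The stabiliser of a pair `{w, σ w}`, where `σ` is an involution commuting with the action. -/
def pairStab {X : Type*} [MulAction T X] (σ : X → X) (hσ : ∀ x, σ (σ x) = x)
    (hc : ∀ (g : T) x, g • σ x = σ (g • x)) (w : X) : Subgroup T where
  carrier := {g | g • w = w ∨ g • w = σ w}
  one_mem' := Or.inl (one_smul _ _)
  mul_mem' := by
    rintro a b (ha | ha) (hb | hb)
    · left; rw [mul_smul, hb, ha]
    · right; rw [mul_smul, hb, hc, ha]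
    · right; rw [mul_smul, hb, ha]
    · left; rw [mul_smul, hb, hc, ha, hσ]
  inv_mem' := by
    rintro a (ha | ha)
    · left; rw [inv_smul_eq_iff, ha]
    · right; rw [inv_smul_eq_iff, hc, ha, hσ]

theorem pair_of_swap {X : Type*} [MulAction T X] (σ : X → X) (hσ : ∀ x, σ (σ x) = x)
    (hc : ∀ (g : T) x, g • σ x = σ (g • x)) (w : X) (hw : σ w ≠ w)
    (hne : ∃ t : T, t • w ≠ w ∧ t • w ≠ σ w)
    (h : ∀ t : T, ∃ g : T, g • w = σ w ∧ (g • t • w = t • w ∨ g • t • w = σ (t • w))) : Pair T := by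
  refine ⟨pairStab σ hσ hc w, MulAction.stabilizer T w, isPair_of_index_two ?_ ?_ ?_ ?_⟩
  · intro e
    obtain ⟨t, h1, h2⟩ := hne
    have : t ∈ pairStab σ hσ hc w := by rw [e]; exact Subgroup.mem_top _
    rcases this with h3 | h3
    · exact h1 h3
    · exact h2 h3
  · intro g hg
    exact Or.inl hg
  · rintro x (hx | hx) y (hy | hy) h1 h2
    · exact absurd hx h1
    · exact absurd hx h1
    · exact absurd hy h2
    · rw [MulAction.mem_stabilizer_iff, mul_smul, hy, hc, hx, hσ]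
  · intro t
    obtain ⟨g, h1, h2⟩ := h t
    refine ⟨g, Or.inr h1, ?_, fun h3 => hw (h1.symm.trans h3)⟩
    rcases h2 with h2 | h2
    · left
      change (t⁻¹ * g * t) • w = w
      rw [mul_smul, mul_smul, h2, inv_smul_smul]
    · right
      change (t⁻¹ * g * t) • w = σ w
      rw [mul_smul, mul_smul, h2, hc, inv_smul_smul]

/-- A subgroup of index two contains the product of two elements outside it. -/
theorem mul_mem_of_card {A B : Subgroup T} [Finite A] (hBA : B ≤ A) (hc : Nat.card A = 2 * Nat.card B) :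
    ∀ x ∈ A, ∀ y ∈ A, x ∉ B → y ∉ B → x * y ∈ B := by
  intro x hx y hy h1 h2
  have e1 := (B.subgroupOf A).card_mul_index
  rw [Nat.card_congr (Subgroup.subgroupOfEquivOfLe hBA).toEquiv, hc] at e1
  have hf : Finite B := Finite.of_injective _ (Subgroup.inclusion_injective hBA)
  have hpos : 0 < Nat.card B := Nat.card_pos
  have e2 : (B.subgroupOf A).index = 2 := by
    rw [mul_comm 2] at e1
    exact Nat.eq_of_mul_eq_mul_left hpos e1
  have e3 : (⟨x, hx⟩ * ⟨y, hy⟩ : A) ∈ B.subgroupOf A := by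
    rw [Subgroup.mul_mem_iff_of_index_two e2]
    exact ⟨fun h => absurd h h1, fun h => absurd h h2⟩
  exact e3

/-- Permutation form: `A` is the stabiliser of `x₀`, `d ∈ A \ B`, and `d y` lies in the `B`-orbit of `y` for every `y`
in the orbit of `x₀`. -/
theorem isPair_of_perm {X : Type*} (φ : T →* Equiv.Perm X) (x₀ : X) {A B : Subgroup T}
    (hA : ∀ g, g ∈ A ↔ φ g x₀ = x₀) (hne : A ≠ ⊤) (hBA : B ≤ A)
    (h2 : ∀ x ∈ A, ∀ y ∈ A, x ∉ B → y ∉ B → x * y ∈ B) {d : T} (hd : d ∈ A) (hdB : d ∉ B)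
    (h : ∀ t : T, ∃ b ∈ B, φ b (φ t x₀) = φ d (φ t x₀)) : IsPair A B := by
  refine isPair_of_index_two hne hBA h2 fun t => ?_
  obtain ⟨b, hb, e⟩ := h t
  refine ⟨b⁻¹ * d, A.mul_mem (A.inv_mem (hBA hb)) hd, ?_, fun h3 => hdB ?_⟩
  · rw [hA, map_mul, map_mul, map_mul, Equiv.Perm.mul_apply, Equiv.Perm.mul_apply, Equiv.Perm.mul_apply, ← e,
      map_inv, map_inv]
    simp
  · simpa using B.mul_mem hb h3

/-- If `B` is normalised by the involution-like `d` and `A = ⟨B, d⟩`, `d² ∈ B`, the product of two elements of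
`A \ B` is in `B`. -/
theorem mul_mem_of_gen {A B : Subgroup T} {d : T} (hdd : d * d ∈ B) (hn : ∀ b ∈ B, d * b * d⁻¹ ∈ B)
    (S : Set T) (hA : A = Subgroup.closure S) (hS : ∀ s ∈ S, s ∈ B ∨ s * d⁻¹ ∈ B) :
    ∀ x ∈ A, ∀ y ∈ A, x ∉ B → y ∉ B → x * y ∈ B := by
  have hn' : ∀ b ∈ B, d⁻¹ * b * d ∈ B := by
    intro b hb
    have := hn _ (B.mul_mem (B.mul_mem (B.inv_mem hdd) hb) hdd)
    have e : d * ((d * d)⁻¹ * b * (d * d)) * d⁻¹ = d⁻¹ * b * d := by group
    rwa [e] at this
  have key : ∀ x ∈ A, x ∈ B ∨ x * d⁻¹ ∈ B := by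
    intro x hx
    rw [hA] at hx
    induction hx using Subgroup.closure_induction with
    | mem s hs => exact hS s hs
    | one => exact Or.inl B.one_mem
    | mul x y _ _ hx hy =>
      rcases hx with hx | hx <;> rcases hy with hy | hy
      · exact Or.inl (B.mul_mem hx hy)
      · right; rw [mul_assoc]; exact B.mul_mem hx hy
      · right
        have := B.mul_mem hx (hn y hy)
        rwa [show x * d⁻¹ * (d * y * d⁻¹) = x * y * d⁻¹ by group] at this
      · left
        have := B.mul_mem (B.mul_mem hx (hn _ hy)) hdd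
        rwa [show x * d⁻¹ * (d * (y * d⁻¹) * d⁻¹) * (d * d) = x * y by group] at this
    | inv x _ hx =>
      rcases hx with hx | hx
      · exact Or.inl (B.inv_mem hx)
      · right
        have := B.mul_mem (hn' _ (B.inv_mem hx)) (B.inv_mem hdd)
        rwa [show d⁻¹ * (x * d⁻¹)⁻¹ * d * (d * d)⁻¹ = x⁻¹ * d⁻¹ by group] at this
  intro x hx y hy h1 h2
  have hx' := (key x hx).resolve_left h1
  have hy' := (key y hy).resolve_left h2
  have := B.mul_mem (B.mul_mem hx' (hn _ hy')) hdd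
  rwa [show x * d⁻¹ * (d * (y * d⁻¹) * d⁻¹) * (d * d) = x * y by group] at this

end Cfsg.Agent.SP.PosB
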