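import Cfsg.Agent.SporadicStructure.Co2RankThree
import Cfsg.Agent.S0391
import Cfsg.Agent.S0392

/-! # Inner products of minimal vectors of the Leech lattice (helper26) -/

set_option autoImplicit false

namespace Cfsg.Agent.SP.PosB

open Cfsg Cfsg.Agent.SporadicStructure.Co2RankThree

theorem norm_cases (x : leechLattice) : x = 0 ∨ (32 ≤ dt x x ∧ 16 ∣ dt x x) := by
  by_cases h : x = 0
  · exact Or.inl h
  · right
    rw [← norm_eq]
    exact ⟨Cfsg.Agent.S0391.result x x.2 (fun e => h (Subtype.ext e)), Cfsg.Agent.S0392.result x x.2⟩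

/-- inner products of two minimal vectors -/
theorem dt_min {a b : leechLattice} (ha : dt a a = 32) (hb : dt b b = 32) :
    b = a ∨ b = -a ∨ dt a b = 16 ∨ dt a b = 8 ∨ dt a b = 0 ∨ dt a b = -8 ∨ dt a b = -16 := by
  have h1 : dt (a - b) (a - b) = 64 - 2 * dt a b := by
    simp only [dt_sub_left, dt_sub_right]; rw [dt_comm b a]; omega
  have h2 : dt (a + b) (a + b) = 64 + 2 * dt a b := by
    simp only [dt_add_left, dt_add_right]; rw [dt_comm b a]; omega
  rcases norm_cases (a - b) with h3 | h3
  · exact Or.inl (sub_eq_zero.1 h3).symm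
  rcases norm_cases (a + b) with h4 | h4
  · exact Or.inr (Or.inl (eq_neg_of_add_eq_zero_right h4))
  rw [h1] at h3
  rw [h2] at h4
  omega

end Cfsg.Agent.SP.PosB
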