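import Cfsg.Agent.Lib.PermNetOrbit

/-! # Orbits of a subgroup closed under an extra element (networks of `Lib.PermNet`) (helper26) -/

set_option autoImplicit false

namespace Cfsg.Agent.SP.PosB

open Cfsg.Agent.Lib.PermNet Cfsg.Agent.Lib.PermNetOrbit

/-- the saturations of the points `ps` are stable under `d` and cover, together with `V`, the set `F` -/
noncomputable def covB (ws : List (List Net)) (d : List Net) (r F : ℕ) (ps : List ℕ) : ℕ → Bool :=
  List.rec (motive := fun _ => ℕ → Bool) (fun V => Nat.beq V F)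
    (fun p _ ih V => seqB (sat ws r (Nat.pow 2 p)) fun U => and (Nat.beq (appWord d U) U) (seqB (Nat.lor V U) ih)) ps

theorem covB_spec {N : ℕ} {K : Subgroup (Equiv.Perm ℕ)} {ws : List (List Net)} (hws : WsOk N ws)
    (hK : ∀ w ∈ ws, wperm w ∈ K) {d : List Net} (hd : WOk N d) {r F : ℕ} :
    ∀ (ps : List ℕ) (V : ℕ), covB ws d r F ps V = true → ∀ y, F.testBit y = true →
      V.testBit y = true ∨ ∃ b ∈ K, b y = wperm d y := by
  intro ps
  induction ps with
  | nil =>
    intro V h y hy
    have h' : V = F := Nat.eq_of_beq_eq_true h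
    exact Or.inl (h' ▸ hy)
  | cons p ps ih =>
    intro V h y hy
    have h' : (seqB (sat ws r (Nat.pow 2 p)) fun U => and (Nat.beq (appWord d U) U)
      (seqB (Nat.lor V U) (covB ws d r F ps))) = true := h
    rw [seqB_eq, seqB_eq, Bool.and_eq_true] at h'
    rcases ih _ h'.2 y hy with h1 | h1
    · have h2 : (V ||| sat ws r (2 ^ p)).testBit y = true := h1
      rw [Nat.testBit_or, Bool.or_eq_true] at h2
      rcases h2 with h2 | h2
      · exact Or.inl h2
      · right
        have h3 : appWord d (sat ws r (2 ^ p)) = sat ws r (2 ^ p) := Nat.eq_of_beq_eq_true h'.1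
        have h4 := testBit_appWord hd (sat ws r (2 ^ p)) y
        rw [h3, h2] at h4
        obtain ⟨g, hg, e⟩ := sat_point_spec hws hK r h2
        obtain ⟨g', hg', e'⟩ := sat_point_spec hws hK r h4.symm
        refine ⟨g' * g⁻¹, K.mul_mem hg' (K.inv_mem hg), ?_⟩
        rw [Equiv.Perm.mul_apply, ← e', ← e]; simp
    · exact Or.inr h1

theorem covB_full {N : ℕ} {K : Subgroup (Equiv.Perm ℕ)} {ws : List (List Net)} (hws : WsOk N ws)
    (hK : ∀ w ∈ ws, wperm w ∈ K) {d : List Net} (hd : WOk N d) {r n : ℕ} {ps : List ℕ}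
    (h : covB ws d r (Nat.sub (Nat.pow 2 n) 1) ps 0 = true) (y : ℕ) (hy : y < n) : ∃ b ∈ K, b y = wperm d y := by
  refine (covB_spec hws hK hd ps 0 h y ?_).resolve_left (by simp)
  change (2 ^ n - 1).testBit y = true
  rw [Nat.testBit_two_pow_sub_one]
  exact decide_eq_true hy

end Cfsg.Agent.SP.PosB
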